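import Mathlib

/-!
Cycle sums over `p`-subgroups of a symmetric group, and the resulting bound `4 ^ n` on the number
of conjugacy classes of a permutation group of degree `n`.
-/

set_option autoImplicit false

namespace Cfsg.Agent.Components.ClassBound

open Equiv

/-- Number of cycles (fixed points included). -/
noncomputable def cyc {α : Type*} (x : Perm α) : ℕ :=
  Nat.card (Quotient (Perm.SameCycle.setoid x))

section
variable {α : Type*} [Finite α]

theorem cyc_le (x : Perm α) : cyc x ≤ Nat.card α :=
  Nat.card_le_card_of_surjective _ Quotient.mk_surjective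

theorem cyc_mul_le {p : ℕ} (x : Perm α) (h : ∀ a, p ≤ Nat.card {b // Perm.SameCycle x a b}) :
    cyc x * p ≤ Nat.card α := by
  classical
  haveI := Fintype.ofFinite α
  let f : α → Quotient (Perm.SameCycle.setoid x) := Quotient.mk _
  rw [← Nat.card_congr (Equiv.sigmaFiberEquiv f), Nat.card_sigma]
  refine le_trans (le_of_eq ?_) (Finset.card_nsmul_le_sum Finset.univ _ p ?_)
  · rw [Finset.card_univ, smul_eq_mul, cyc, Nat.card_eq_fintype_card]
  · rintro q -
    induction q using Quotient.inductionOn with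
    | h a =>
      refine le_trans (h a) (le_of_eq (Nat.card_congr (Equiv.subtypeEquivRight ?_)))
      intro b
      exact ⟨fun hb => Quotient.sound hb.symm, fun hb => (Quotient.exact hb).symm⟩

theorem le_card_sameCycle {p : ℕ} (hp : p.Prime) (x : Perm α) {k : ℕ} (hx : orderOf x = p ^ k)
    (a : α) (ha : x a ≠ a) : p ≤ Nat.card {b // Perm.SameCycle x a b} := by
  have hP : IsPGroup p (Subgroup.zpowers x) := IsPGroup.of_card (Nat.card_zpowers x ▸ hx)
  haveI : Fact p.Prime := ⟨hp⟩
  obtain ⟨i, hi⟩ := hP.card_orbit a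
  have e : MulAction.orbit (Subgroup.zpowers x) a = {b | Perm.SameCycle x a b} := by
    ext b
    constructor
    · rintro ⟨⟨_, ⟨j, rfl⟩⟩, hj⟩
      exact ⟨j, hj⟩
    · rintro ⟨j, hj⟩
      exact ⟨⟨x ^ j, j, rfl⟩, hj⟩
  rw [e] at hi
  change Nat.card {b // Perm.SameCycle x a b} = _ at hi
  rw [hi]
  rcases Nat.eq_zero_or_pos i with rfl | h
  · rw [pow_zero] at hi
    haveI := (Nat.card_eq_one_iff_unique.mp hi).1
    exact absurd (congrArg Subtype.val (Subsingleton.elim
      (⟨x a, ⟨1, by simp⟩⟩ : {b // Perm.SameCycle x a b}) ⟨a, Perm.SameCycle.refl _ _⟩)) ha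
  · exact Nat.le_self_pow (by omega) p

theorem cyc_subtypePerm_add (x : Perm α) (s : α → Prop) (hs : ∀ a, s (x a) ↔ s a)
    (ht : ∀ a, ¬ s (x a) ↔ ¬ s a) :
    cyc x = cyc (x.subtypePerm hs) + cyc (x.subtypePerm (p := fun a => ¬ s a) ht) := by
  rw [cyc, cyc, cyc, ← Nat.card_sum]
  symm
  refine Nat.card_eq_of_bijective (Sum.elim
    (Quotient.map Subtype.val fun a b h => Perm.sameCycle_subtypePerm.mp h)
    (Quotient.map Subtype.val fun a b h => Perm.sameCycle_subtypePerm.mp h)) ⟨?_, ?_⟩
  · have inv : ∀ {a b : α}, Perm.SameCycle x a b → (s a ↔ s b) := by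
      rintro a b ⟨i, rfl⟩
      induction i with
      | zero => simp
      | succ i ih =>
        rw [zpow_add_one, (Commute.zpow_self x _).eq, Perm.mul_apply, hs]
        exact ih
      | pred i ih =>
        rw [ih, ← hs ((x ^ (-(i : ℤ) - 1)) a), ← Perm.mul_apply, ← zpow_one_add,
          show (1 : ℤ) + (-(i : ℤ) - 1) = -(i : ℤ) by ring]
    rintro (u | u) (v | v) h <;> induction u using Quotient.inductionOn <;>
      induction v using Quotient.inductionOn <;> rename_i a b <;>
      simp only [Sum.elim_inl, Sum.elim_inr, Quotient.map_mk] at h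
    · exact congrArg Sum.inl (Quotient.sound (Perm.sameCycle_subtypePerm.mpr (Quotient.exact h)))
    · exact absurd ((inv (Quotient.exact h)).mp a.2) b.2
    · exact absurd ((inv (Quotient.exact h)).mpr b.2) a.2
    · exact congrArg Sum.inr (Quotient.sound (Perm.sameCycle_subtypePerm.mpr (Quotient.exact h)))
  · intro q
    induction q using Quotient.inductionOn with
    | h a =>
      by_cases ha : s a
      · exact ⟨Sum.inl ⟦⟨a, ha⟩⟧, rfl⟩
      · exact ⟨Sum.inr ⟦⟨a, ha⟩⟧, rfl⟩

theorem card_le_pow_factorial {p : ℕ} [hp : Fact p.Prime] {P : Subgroup (Perm α)}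
    (hP : IsPGroup p P) : Nat.card P ≤ p ^ padicValNat p (Nat.card α).factorial := by
  obtain ⟨k, hk⟩ := IsPGroup.iff_card.mp hP
  rw [hk]
  refine Nat.pow_le_pow_right hp.out.pos ?_
  rw [← padicValNat_dvd_iff_le (Nat.factorial_ne_zero _), ← hk, ← Nat.card_perm]
  exact Subgroup.card_subgroup_dvd_card P

end

theorem pow_bernoulli {b d : ℝ} (hb : 0 ≤ b) (hd : 0 ≤ d) :
    ∀ n : ℕ, b ^ (n + 1) + (n + 1) * b ^ n * d ≤ (b + d) ^ (n + 1)
  | 0 => by simp
  | n + 1 => by
    have h := mul_le_mul_of_nonneg_right (pow_bernoulli hb hd n) (add_nonneg hb hd)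
    have h0 : (0 : ℝ) ≤ ((n : ℝ) + 1) * b ^ n * d * d := by positivity
    rw [pow_succ (b + d) (n + 1)]
    push_cast
    rw [pow_succ b (n + 1), pow_succ b n] at *
    nlinarith

/-- The cycle sum of a set of permutations. -/
noncomputable def cycSum {α : Type*} [Finite α] (b : ℝ) (P : Subgroup (Perm α)) : ℝ :=
  letI := Fintype.ofFinite P
  ∑ x : P, b ^ cyc (x : Perm α)

/-- `2 *` the slack kept for a transitive `p`-group of degree `n`. -/
noncomputable def slack (p : ℕ) (b : ℝ) (n : ℕ) : ℝ :=
  (p : ℝ) ^ padicValNat p n.factorial * b ^ (n / p)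

theorem cycSum_le {p : ℕ} [hp : Fact p.Prime] (h3 : 3 ≤ p) {b a : ℝ} (hb : 3 ≤ b)
    (ha : b + 4 / 2 ^ p ≤ a) : ∀ (n : ℕ) {α : Type} [Finite α], Nat.card α = n →
    ∀ P : Subgroup (Perm α), IsPGroup p P →
      cycSum b P ≤ a ^ n ∧
        (2 ≤ n → MulAction.IsPretransitive P α → 2 * cycSum b P + slack p b n ≤ 2 * a ^ n) := by
  have hb0 : (0 : ℝ) ≤ b := by linarith
  have hba : b ≤ a := le_trans (by simp only [le_add_iff_nonneg_right]; positivity) ha
  intro n
  induction n using Nat.strong_induction_on with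
  | _ n ih =>
  intro α _ hα P hP
  classical
  haveI := Fintype.ofFinite P
  have hcyc : cycSum b P = ∑ x : P, b ^ cyc (x : Perm α) := by
    rw [cycSum]
    congr 1
    exact Finset.ext (by simp)
  rcases Nat.lt_or_ge n 2 with hn | hn
  · refine ⟨?_, fun h => absurd h (by omega)⟩
    haveI : Subsingleton α := Finite.card_le_one_iff_subsingleton.mp (by omega)
    rw [hcyc]
    calc ∑ x : P, b ^ cyc (x : Perm α) ≤ ∑ _x : P, b ^ n :=
          Finset.sum_le_sum fun x _ => pow_le_pow_right₀ (by linarith) (hα ▸ cyc_le _)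
      _ ≤ a ^ n := by
          haveI : Subsingleton P := ⟨fun x y => Subtype.ext (Subsingleton.elim _ _)⟩
          haveI := uniqueOfSubsingleton (1 : P)
          rw [Finset.sum_const, Finset.card_univ, Fintype.card_unique]
          simpa using pow_le_pow_left₀ hb0 hba n
  -- splitting along an invariant set
  have split : ∀ (P : Subgroup (Perm α)), IsPGroup p P → ∀ (s : α → Prop),
      (hs : ∀ x ∈ P, ∀ a, s (x a) ↔ s a) → ∀ m : ℕ, Nat.card {a // s a} = m → m < n → 0 < m →
      ∃ (Ps : Subgroup (Perm {a // s a})), IsPGroup p Ps ∧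
        (∀ u v : {a // s a}, (∃ x ∈ P, x u.1 = v.1) → ∃ x : Ps, x.1 u = v) ∧
        cycSum b P ≤ cycSum b Ps * a ^ (n - m) := by
    intro P hP s hs m hm hmn hm0
    haveI := Fintype.ofFinite P
    have ht : ∀ x ∈ P, ∀ a, ¬ s (x a) ↔ ¬ s a := fun x hx a => not_congr (hs x hx a)
    let f : P →* Perm {a // s a} :=
      { toFun := fun x => x.1.subtypePerm (hs x.1 x.2)
        map_one' := by ext u; simp
        map_mul' := fun x y => Equiv.ext fun u => Subtype.ext rfl }
    let g : P →* Perm {a // ¬ s a} :=
      { toFun := fun x => x.1.subtypePerm (ht x.1 x.2)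
        map_one' := by ext u; simp
        map_mul' := fun x y => Equiv.ext fun u => Subtype.ext rfl }
    have hPs : IsPGroup p f.range := hP.of_surjective f.rangeRestrict f.rangeRestrict_surjective
    have hPt : IsPGroup p g.range := hP.of_surjective g.rangeRestrict g.rangeRestrict_surjective
    have hcard : Nat.card {a // ¬ s a} = n - m := by
      have := Nat.card_congr (Equiv.sumCompl s)
      rw [Nat.card_sum, hα, hm] at this
      omega
    refine ⟨f.range, hPs, ?_, ?_⟩
    · rintro u v ⟨x, hx, hxu⟩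
      exact ⟨⟨f ⟨x, hx⟩, _, rfl⟩, Subtype.ext hxu⟩
    · have h2 := (ih (n - m) (by omega) hcard g.range hPt).1
      haveI := Fintype.ofFinite f.range
      haveI := Fintype.ofFinite g.range
      have hf : cycSum b f.range = ∑ x : f.range, b ^ cyc (x : Perm {a // s a}) := by
        rw [cycSum]
        congr 1
        exact Finset.ext (by simp)
      have hg : cycSum b g.range = ∑ x : g.range, b ^ cyc (x : Perm {a // ¬ s a}) := by
        rw [cycSum]
        congr 1
        exact Finset.ext (by simp)
      refine le_trans ?_ (mul_le_mul_of_nonneg_left h2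
        (by rw [hf]; exact Finset.sum_nonneg fun _ _ => pow_nonneg hb0 _))
      rw [hf, hg, Finset.sum_mul_sum, ← Finset.sum_product']
      have hP' : cycSum b P = ∑ x : P, b ^ cyc (x : Perm α) := by
        rw [cycSum]
        congr 1
        exact Finset.ext (by simp)
      let e : P → f.range × g.range := fun x => (f.rangeRestrict x, g.rangeRestrict x)
      have he : Function.Injective e := by
        intro x y hxy
        simp only [e, Prod.mk.injEq] at hxy
        apply Subtype.ext
        ext c
        by_cases hc : s c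
        · exact congrArg (fun q : f.range => (q.1 ⟨c, hc⟩).1) hxy.1
        · exact congrArg (fun q : g.range => (q.1 ⟨c, hc⟩).1) hxy.2
      calc cycSum b P = ∑ x : P, b ^ cyc ((e x).1 : Perm {a // s a}) *
              b ^ cyc ((e x).2 : Perm {a // ¬ s a}) := by
            rw [hP']
            refine Finset.sum_congr rfl fun x _ => ?_
            rw [← pow_add, cyc_subtypePerm_add x.1 s (hs x.1 x.2) (ht x.1 x.2)]
            rfl
        _ = ∑ q ∈ Finset.univ.image e, b ^ cyc (q.1 : Perm {a // s a}) *
              b ^ cyc (q.2 : Perm {a // ¬ s a}) := by rw [Finset.sum_image fun x _ y _ h => he h]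
        _ ≤ _ := by
            refine le_trans (Finset.sum_le_sum_of_subset_of_nonneg (Finset.subset_univ _)
              fun q _ _ => by positivity) (le_of_eq ?_)
            rw [Finset.univ_product_univ]
  haveI : Nonempty α := (Nat.card_pos_iff.mp (by omega)).1
  obtain ⟨a₀⟩ := ‹Nonempty α›
  by_cases htr : MulAction.IsPretransitive P α
  swap
  · refine ⟨?_, fun _ h => absurd h htr⟩
    let s : α → Prop := fun c => c ∈ MulAction.orbit P a₀
    have hs : ∀ x ∈ P, ∀ c, s (x c) ↔ s c := fun x hx c =>
      MulAction.mem_orbit_symm.trans <| by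
        constructor
        · intro h
          exact MulAction.orbit_eq_iff.mp ((MulAction.orbit_eq_iff.mpr h).trans
            (MulAction.orbit_smul (⟨x, hx⟩ : P) c)) |> MulAction.mem_orbit_symm.mp
        · intro h
          exact MulAction.orbit_eq_iff.mp ((MulAction.orbit_eq_iff.mpr
            (MulAction.mem_orbit_symm.mp h)).trans
            (MulAction.orbit_smul (⟨x, hx⟩ : P) c).symm)
    obtain ⟨c, hc⟩ : ∃ c, ¬ s c := by
      by_contra h
      push Not at h
      exact htr ((MulAction.isPretransitive_iff_base a₀).mpr fun c => h c)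
    have hlt : Nat.card {a // s a} < n := hα ▸ Finite.card_subtype_lt hc
    haveI : Nonempty {a // s a} := ⟨⟨a₀, MulAction.mem_orbit_self _⟩⟩
    obtain ⟨Ps, hPs, -, hle⟩ := split P hP s hs _ rfl hlt Nat.card_pos
    refine hle.trans ?_
    calc cycSum b Ps * a ^ (n - Nat.card {a // s a})
        ≤ a ^ Nat.card {a // s a} * a ^ (n - Nat.card {a // s a}) :=
          mul_le_mul_of_nonneg_right (ih _ hlt rfl Ps hPs).1 (pow_nonneg (by linarith) _)
      _ = a ^ n := by rw [← pow_add, Nat.add_sub_cancel' hlt.le]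
  suffices key : 2 * cycSum b P + slack p b n ≤ 2 * a ^ n by
    refine ⟨?_, fun _ _ => key⟩
    have : (0 : ℝ) ≤ slack p b n := by unfold slack; positivity
    linarith
  -- transitive case: a normal subgroup of index p containing all point stabilizers
  let S := MulAction.stabilizer P a₀
  have hSidx : S.index = n := by rw [MulAction.index_stabilizer_of_transitive, hα]
  obtain ⟨e, he⟩ := IsPGroup.iff_card.mp hP
  obtain ⟨t, ht⟩ := IsPGroup.iff_card.mp (hP.to_subgroup S)
  have hte : t < e := by
    by_contra h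
    push Not at h
    have h1 := Subgroup.card_mul_index S
    rw [he, ht, hSidx] at h1
    have : p ^ e ≤ p ^ t := Nat.pow_le_pow_right hp.out.pos h
    nlinarith [pow_pos hp.out.pos t]
  obtain ⟨M, hMc, hSM⟩ := Sylow.exists_subgroup_card_pow_prime_le p
    (show p ^ (e - 1) ∣ Nat.card P by rw [he]; exact pow_dvd_pow p (by omega)) S ht (by omega)
  have hMi : M.index = p := by
    have h1 := Subgroup.card_mul_index M
    rw [hMc, he] at h1
    refine Nat.eq_of_mul_eq_mul_left (pow_pos hp.out.pos (e - 1)) (h1.trans ?_)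
    rw [← pow_succ]; congr 1; omega
  haveI hMn : M.Normal := Subgroup.normal_of_index_eq_minFac_card (by
    rw [hMi, he, Nat.pow_minFac (by omega), hp.out.minFac_eq])
  have hfix : ∀ x : P, ∀ c : α, x • c = c → x ∈ M := by
    intro x c hx
    obtain ⟨y, rfl⟩ := MulAction.exists_smul_eq P a₀ c
    have : y⁻¹ * x * y ∈ M := hSM (MulAction.mem_stabilizer_iff.mpr (by
      rw [mul_smul, mul_smul, hx, inv_smul_smul]))
    simpa [mul_assoc] using hMn.conj_mem _ this y
  have hnd : p ∣ n := hSidx ▸ hMi ▸ Subgroup.index_dvd_of_le hSM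
  obtain ⟨m, rfl⟩ := hnd
  have hm0 : 0 < m := Nat.pos_of_ne_zero (by rintro rfl; simp at hn)
  have hout : ∀ x : P, x ∉ M → cyc (x : Perm α) ≤ m := by
    intro x hx
    obtain ⟨k, hk⟩ := IsPGroup.iff_orderOf.mp hP x
    rw [← Subgroup.orderOf_coe] at hk
    have := cyc_mul_le (p := p) (x : Perm α) fun c =>
      le_card_sameCycle hp.out _ hk c fun h => hx (hfix x c h)
    rw [hα, mul_comm p m] at this
    exact Nat.le_of_mul_le_mul_right this hp.out.pos
  have hsum : cycSum b P ≤ (∑ x : P with x ∈ M, b ^ cyc (x : Perm α)) +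
      (Finset.univ.filter fun x : P => x ∉ M).card * b ^ m := by
    rw [hcyc, ← Finset.sum_filter_add_sum_filter_not Finset.univ (fun x : P => x ∈ M),
      ← nsmul_eq_mul]
    gcongr
    refine Finset.sum_le_card_nsmul _ _ _ fun x hx => ?_
    exact pow_le_pow_right₀ (by linarith) (hout x (Finset.mem_filter.mp hx).2)
  have hn0 : p * m / p = m := Nat.mul_div_cancel_left m hp.out.pos
  rcases Nat.lt_or_ge m 2 with hm | hm
  · -- degree p
    obtain rfl : m = 1 := by omega
    rw [mul_one] at *
    have hMS : M = S := by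
      refine (Subgroup.eq_of_le_of_card_ge hSM ?_).symm
      have h1 := Subgroup.card_mul_index M
      have h2 := Subgroup.card_mul_index S
      rw [hMi] at h1
      rw [hSidx] at h2
      exact Nat.le_of_mul_le_mul_right (h1.trans h2.symm).le hp.out.pos
    have hM1 : ∀ x ∈ M, x = (1 : P) := by
      intro x hx
      apply Subtype.ext
      ext c
      obtain ⟨y, rfl⟩ := MulAction.exists_smul_eq P a₀ c
      have h1 : y⁻¹ * x * y ∈ M := by simpa [mul_assoc] using hMn.conj_mem x hx y⁻¹
      rw [hMS, MulAction.mem_stabilizer_iff, mul_smul, mul_smul, inv_smul_eq_iff] at h1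
      exact h1
    have hMb : M = ⊥ := (Subgroup.eq_bot_iff_forall M).mpr hM1
    have hPc : Nat.card P = p := by
      have h1 := Subgroup.card_mul_index M
      rw [hMi, hMb, Subgroup.card_bot, one_mul] at h1
      exact h1.symm
    have hf : (Finset.univ.filter fun x : P => x ∈ M) = {1} := by
      ext x
      simp only [Finset.mem_filter, Finset.mem_univ, true_and, Finset.mem_singleton]
      exact ⟨hM1 x, fun h => h ▸ M.one_mem⟩
    have hg : (Finset.univ.filter fun x : P => x ∉ M).card = p - 1 := by
      have := Finset.card_filter_add_card_filter_not (s := (Finset.univ : Finset P))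
        (fun x : P => x ∈ M)
      rw [hf, Finset.card_singleton, Finset.card_univ, ← Nat.card_eq_fintype_card, hPc] at this
      omega
    rw [hf, Finset.sum_singleton, hg, pow_one] at hsum
    have h1 : b ^ cyc ((1 : P) : Perm α) ≤ b ^ p :=
      pow_le_pow_right₀ (by linarith) (hα ▸ cyc_le _)
    have h2 : slack p b p = p * b := by
      rw [slack, Nat.div_self hp.out.pos, pow_one]
      have := padicValNat_factorial_mul (p := p) 1
      rw [mul_one] at this
      simp [this]
    obtain ⟨q, rfl⟩ : ∃ q, p = q + 1 := ⟨p - 1, by omega⟩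
    have h3' : b ^ (q + 1) + (q + 1) * b ^ q * (4 / 2 ^ (q + 1)) ≤ a ^ (q + 1) :=
      (pow_bernoulli hb0 (by positivity) q).trans
        (pow_le_pow_left₀ (by positivity) ha _)
    obtain ⟨r, rfl⟩ : ∃ r, q = r + 1 := ⟨q - 1, by omega⟩
    have h4 : (3 : ℝ) / 2 * b ≤ b ^ (r + 1) * (4 / 2 ^ (r + 1 + 1)) := by
      have e1 : (3 / 2 : ℝ) ≤ (b / 2) ^ r := by
        calc (3 / 2 : ℝ) ≤ b / 2 := by linarith
          _ = (b / 2) ^ 1 := (pow_one _).symm
          _ ≤ (b / 2) ^ r := pow_le_pow_right₀ (by linarith) (by omega)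
      have e2 : b ^ (r + 1) * (4 / 2 ^ (r + 1 + 1)) = b * (b / 2) ^ r := by
        rw [div_pow, pow_succ, pow_succ, pow_succ]
        field_simp
        ring
      rw [e2]
      nlinarith
    rw [Nat.add_sub_cancel] at hsum
    rw [h2]
    push_cast at *
    nlinarith [mul_le_mul_of_nonneg_left h4 (show (0 : ℝ) ≤ (r : ℝ) + 1 + 1 by positivity)]
  · -- larger degree
    let P' : Subgroup (Perm α) := M.map P.subtype
    have hP' : IsPGroup p P' := (hP.to_subgroup M).map P.subtype
    let s : α → Prop := fun c => c ∈ MulAction.orbit M a₀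
    have hs : ∀ x ∈ P', ∀ c, s (x c) ↔ s c := by
      rintro _ ⟨x, hx, rfl⟩ c
      have h : MulAction.orbit M (x • c) = MulAction.orbit M c :=
        MulAction.orbit_smul (⟨x, hx⟩ : M) c
      show (x • c) ∈ MulAction.orbit M a₀ ↔ c ∈ MulAction.orbit M a₀
      rw [← MulAction.orbit_eq_iff, h, MulAction.orbit_eq_iff]
    have hsc : Nat.card {c // s c} = m := by
      change Nat.card (MulAction.orbit M a₀) = m
      rw [Nat.card_coe_set_eq, ← MulAction.index_stabilizer]
      have h1 : MulAction.stabilizer M a₀ = S.subgroupOf M := by ext; rfl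
      rw [h1]
      have h2 := Subgroup.relIndex_mul_index hSM
      rw [hMi, hSidx, mul_comm p m] at h2
      exact Nat.eq_of_mul_eq_mul_right hp.out.pos h2
    obtain ⟨Ps, hPs, htrs, hle⟩ := split P' hP' s hs m hsc (by nlinarith) hm0
    have htr' : MulAction.IsPretransitive Ps {c // s c} := by
      refine ⟨fun u v => ?_⟩
      obtain ⟨x, hx⟩ : ∃ x : M, x • u.1 = v.1 := by
        have : v.1 ∈ MulAction.orbit M u.1 := by
          rw [MulAction.orbit_eq_iff.mpr u.2]; exact v.2
        exact this
      obtain ⟨y, hy⟩ := htrs u v ⟨P.subtype x.1, ⟨x.1, x.2, rfl⟩, hx⟩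
      exact ⟨y, hy⟩
    have hm' := (ih m (by nlinarith) hsc Ps hPs).2 hm htr'
    obtain ⟨w, hw⟩ : p ∣ m := by
      obtain ⟨i, hi⟩ := hP.card_orbit a₀
      rw [MulAction.orbit_eq_univ, Nat.card_univ, hα] at hi
      rcases Nat.lt_or_ge i 2 with h | h
      · exfalso
        have : p ^ i ≤ p ^ 1 := Nat.pow_le_pow_right hp.out.pos (by omega)
        nlinarith
      · refine Nat.dvd_of_mul_dvd_mul_left hp.out.pos ?_
        rw [hi, ← sq]
        exact pow_dvd_pow p h
    have hw0 : 1 ≤ w := Nat.pos_of_ne_zero (by rintro rfl; simp at hw; omega)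
    have hmd : m / p = w := by rw [hw, Nat.mul_div_cancel_left w hp.out.pos]
    have hMsum : (∑ x : P with x ∈ M, b ^ cyc (x : Perm α)) = cycSum b P' := by
      haveI := Fintype.ofFinite P'
      have hP'' : cycSum b P' = ∑ x : P', b ^ cyc (x : Perm α) := by
        rw [cycSum]
        congr 1
        exact Finset.ext (by simp)
      rw [hP'']
      symm
      refine Finset.sum_bij (fun x _ => (⟨x.1, Subgroup.map_subtype_le M x.2⟩ : P)) ?_ ?_ ?_ ?_
      · intro x _
        obtain ⟨y, hy, hyx⟩ := x.2
        simp only [Finset.mem_filter, Finset.mem_univ, true_and]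
        have h : (⟨x.1, Subgroup.map_subtype_le M x.2⟩ : P) = y := Subtype.ext hyx.symm
        rw [h]
        exact hy
      · intro x _ y _ h
        exact Subtype.ext (congrArg Subtype.val h :)
      · intro y hy
        exact ⟨⟨y.1, y, (Finset.mem_filter.mp hy).2, rfl⟩, Finset.mem_univ _, rfl⟩
      · intro x _; rfl
    have hcnt : ((Finset.univ.filter fun x : P => x ∉ M).card : ℝ) ≤
        (p : ℝ) ^ padicValNat p (p * m).factorial := by
      have h1 : (Finset.univ.filter fun x : P => x ∉ M).card ≤
          p ^ padicValNat p (p * m).factorial := by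
        refine le_trans (Finset.card_le_univ _) ?_
        rw [← Nat.card_eq_fintype_card, ← hα]
        exact card_le_pow_factorial hP
      exact_mod_cast h1
    have hX : slack p b (p * m) = (p : ℝ) ^ padicValNat p m.factorial * (p : ℝ) ^ m * b ^ m := by
      rw [slack, hn0, padicValNat_factorial_mul, pow_add]
    have hR : slack p b m = (p : ℝ) ^ padicValNat p m.factorial * b ^ w := by rw [slack, hmd]
    have hsplit : (p * m - m) = (p - 1) * m := by rw [Nat.sub_mul, one_mul]
    have hpw : a ^ (p * m) = a ^ m * a ^ ((p - 1) * m) := by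
      rw [← pow_add]; congr 1
      conv_lhs => rw [show p = (p - 1) + 1 by omega]
      ring
    have hbig : 3 * ((p : ℝ) ^ m * b ^ m) ≤ b ^ w * a ^ ((p - 1) * m) := by
      have e1 : (p : ℝ) ≤ b ^ (p - 2) := by
        have : p ≤ 3 ^ (p - 2) := by
          obtain ⟨r, rfl⟩ : ∃ r, p = r + 3 := ⟨p - 3, by omega⟩
          clear * -
          induction r with
          | zero => simp
          | succ r ih =>
            rw [show r + 1 + 3 - 2 = (r + 3 - 2) + 1 by omega, pow_succ]; omega
        calc (p : ℝ) ≤ (3 : ℝ) ^ (p - 2) := by exact_mod_cast this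
          _ ≤ _ := pow_le_pow_left₀ (by norm_num) hb _
      have e2 : (3 : ℝ) ≤ b ^ w := hb.trans (le_self_pow₀ (by linarith) (by omega))
      calc 3 * ((p : ℝ) ^ m * b ^ m) ≤ b ^ w * ((b ^ (p - 2)) ^ m * b ^ m) := by gcongr
        _ = b ^ w * b ^ ((p - 1) * m) := by
            rw [← pow_mul, ← pow_add]; congr 2
            conv_rhs => rw [show p - 1 = (p - 2) + 1 by omega]
            ring
        _ ≤ _ := by gcongr
    rw [hMsum] at hsum
    rw [hsplit] at hle
    have hbm : (0 : ℝ) ≤ b ^ m := pow_nonneg hb0 _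
    have hc2 : ((Finset.univ.filter fun x : P => x ∉ M).card : ℝ) * b ^ m ≤ slack p b (p * m) := by
      rw [slack, hn0]; exact mul_le_mul_of_nonneg_right hcnt hbm
    have hA : (0 : ℝ) ≤ a ^ ((p - 1) * m) := pow_nonneg (by linarith) _
    have h5 := mul_le_mul_of_nonneg_right hm' hA
    have h6 := mul_le_mul_of_nonneg_left hbig
      (show (0 : ℝ) ≤ (p : ℝ) ^ padicValNat p m.factorial by positivity)
    rw [hR] at h5
    rw [hX] at hc2 ⊢
    rw [hpw]
    nlinarith

end Cfsg.Agent.Components.ClassBound
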