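import Cfsg.Agent.Components.ClassBound.CycleSum

/-!
Number of conjugacy classes of a permutation group of degree `n` is at most `4 ^ n`.
-/

set_option autoImplicit false

namespace Cfsg.Agent.Components.ClassBound

open Equiv

/-- All prime divisors of the order of `g` are `< j`. -/
def Smooth {G : Type*} [Group G] (j : ℕ) (g : G) : Prop :=
  ∀ q : ℕ, q.Prime → q ∣ orderOf g → q < j

/-- Number of classes of `Smooth j` elements. -/
noncomputable def smoothClasses (G : Type*) [Group G] (j : ℕ) : ℕ :=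
  Nat.card {c : ConjClasses G // ∃ g, Smooth j g ∧ ConjClasses.mk g = c}

/-- Coprime conjugacy modulo an abelian kernel. -/
theorem isConj_of_ker {G G' : Type*} [Group G] [Group G'] [Finite G] (f : G →* G')
    (hab : ∀ k ∈ f.ker, ∀ l ∈ f.ker, k * l = l * k) {g h : G} (hfg : f g = f h)
    (hg : (orderOf g).Coprime (Nat.card f.ker)) (hh : (orderOf h).Coprime (Nat.card f.ker)) :
    IsConj g h := by
  classical
  let N := f.ker
  letI : CommGroup N := { N.toGroup with mul_comm := fun a b => Subtype.ext (hab _ a.2 _ b.2) }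
  let σ : N →* N :=
    { toFun := fun k => ⟨g⁻¹ * k * g, by
        have := f.normal_ker.conj_mem k.1 k.2 g⁻¹
        rwa [inv_inv] at this⟩
      map_one' := Subtype.ext (by simp)
      map_mul' := fun a b => Subtype.ext (by push_cast; group) }
  let n : N := ⟨g⁻¹ * h, by simp [N, MonoidHom.mem_ker, map_mul, map_inv, hfg]⟩
  let m := orderOf g * orderOf h
  let P : ℕ → N := fun t => ⟨(g ^ t)⁻¹ * h ^ t, by
    simp [N, MonoidHom.mem_ker, map_mul, map_inv, map_pow, hfg]⟩
  have hP0 : P 0 = 1 := Subtype.ext (by simp [P])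
  have hPm : P m = 1 := Subtype.ext (by
    have e1 : g ^ m = 1 := by rw [pow_mul, pow_orderOf_eq_one, one_pow]
    have e2 : h ^ m = 1 := by rw [pow_mul', pow_orderOf_eq_one, one_pow]
    simp [P, e1, e2])
  have hstep : ∀ t, σ (P t) * n = P (t + 1) := fun t => Subtype.ext (by
    simp only [σ, P, n, MonoidHom.coe_mk, OneHom.coe_mk, Subgroup.coe_mul, pow_succ]
    group)
  let k0 : N := ∏ t ∈ Finset.range m, P t
  have hk0 : σ k0 * n ^ m = k0 := by
    have h1 : σ k0 * n ^ m = ∏ t ∈ Finset.range m, P (t + 1) := by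
      rw [map_prod]
      conv_lhs => arg 2; rw [← Finset.card_range m, ← Finset.prod_const]
      rw [← Finset.prod_mul_distrib]
      exact Finset.prod_congr rfl fun t _ => hstep t
    have h2 := Finset.prod_range_succ' P m
    rw [Finset.prod_range_succ, hP0, mul_one, hPm, mul_one] at h2
    rw [h1, ← h2]
  have hcop : (Nat.card N).Coprime m := Nat.Coprime.mul_right hg.symm hh.symm
  obtain ⟨d, hd⟩ : ∃ d : ℕ, (n ^ m) ^ d = n := by
    obtain ⟨⟨y, hy⟩⟩ : Nonempty {y : N // (powCoprime hcop) y = n} :=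
      ⟨⟨(powCoprime hcop).symm n, Equiv.apply_symm_apply _ _⟩⟩
    have hco : (orderOf n).Coprime m := Nat.Coprime.coprime_dvd_left (orderOf_dvd_natCard n) hcop
    exact exists_pow_eq_self_of_coprime hco.symm
  let k : N := k0 ^ d
  have hk : σ k * n = k := by
    conv_lhs => arg 2; rw [← hd]
    rw [map_pow, ← mul_pow, hk0]
  refine isConj_iff.mpr ⟨(k : G)⁻¹, ?_⟩
  have h3 := congrArg Subtype.val hk
  simp only [σ, n, MonoidHom.coe_mk, OneHom.coe_mk, Subgroup.coe_mul] at h3
  have h4 : g⁻¹ * (k : G) * h = (k : G) := Eq.trans (by group) h3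
  rw [inv_inv]
  calc (k : G)⁻¹ * g * (k : G) = (k : G)⁻¹ * g * (g⁻¹ * (k : G) * h) := by rw [h4]
    _ = h := by group

theorem smoothClasses_le_range {G G' : Type*} [Group G] [Group G'] [Finite G] (f : G →* G') (j : ℕ)
    (hab : ∀ k ∈ f.ker, ∀ l ∈ f.ker, k * l = l * k)
    (hk : ∀ k ∈ f.ker, ∀ q : ℕ, q.Prime → q ∣ orderOf k → j ≤ q) :
    smoothClasses G j ≤ smoothClasses f.range j := by
  have hcop : ∀ g : G, Smooth j g → (orderOf g).Coprime (Nat.card f.ker) := by
    intro g hg
    refine Nat.coprime_of_dvd fun q hq h1 h2 => ?_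
    haveI : Fact q.Prime := ⟨hq⟩
    obtain ⟨k, hk'⟩ := exists_prime_orderOf_dvd_card' q h2
    have := hk k.1 k.2 q hq (by rw [Subgroup.orderOf_coe, hk'])
    exact absurd (hg q hq h1) (by omega)
  let F : {c : ConjClasses G // ∃ g, Smooth j g ∧ ConjClasses.mk g = c} →
      {c : ConjClasses f.range // ∃ g, Smooth j g ∧ ConjClasses.mk g = c} :=
    fun c => ⟨ConjClasses.map f.rangeRestrict c.1, by
      obtain ⟨g, hg, hc⟩ := c.2
      exact ⟨f.rangeRestrict g, fun q hq h => hg q hq (h.trans (orderOf_map_dvd _ g)),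
        by rw [← hc]; rfl⟩⟩
  haveI : Finite f.range := Finite.of_surjective _ f.rangeRestrict_surjective
  refine Nat.card_le_card_of_injective F ?_
  rintro ⟨c, g, hg, rfl⟩ ⟨c', g', hg', rfl⟩ h
  have h1 : ConjClasses.mk (f.rangeRestrict g) = ConjClasses.mk (f.rangeRestrict g') :=
    congrArg Subtype.val h
  obtain ⟨⟨_, u, rfl⟩, hu⟩ := isConj_iff.mp (ConjClasses.mk_eq_mk_iff_isConj.mp h1)
  have hu' : f (u * g * u⁻¹) = f g' := by
    simpa [map_mul, map_inv] using congrArg Subtype.val hu
  have hc : IsConj g (u * g * u⁻¹) := isConj_iff.mpr ⟨u, rfl⟩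
  have ho : orderOf (u * g * u⁻¹) = orderOf g := by
    rw [← MulAut.conj_apply]; exact MulEquiv.orderOf_eq _ g
  exact Subtype.ext (ConjClasses.mk_eq_mk_iff_isConj.mpr
    (hc.trans (isConj_of_ker f hab hu' (ho ▸ hcop g hg) (hcop g' hg'))))

/-- The growth constants. -/
noncomputable def B (j : ℕ) : ℝ := 4 - 8 / 2 ^ j

theorem B_three : B 3 = 3 := by norm_num [B]

theorem B_le_four (j : ℕ) : B j ≤ 4 := by
  have : (0 : ℝ) ≤ 8 / 2 ^ j := by positivity
  unfold B; linarith

theorem B_succ (j : ℕ) : B j + 4 / 2 ^ j = B (j + 1) := by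
  unfold B; rw [pow_succ]; field_simp; ring

theorem three_le_B {j : ℕ} (h : 3 ≤ j) : 3 ≤ B j := by
  induction j, h using Nat.le_induction with
  | base => rw [B_three]
  | succ j _ ih =>
    rw [← B_succ]
    have : (0 : ℝ) ≤ 4 / 2 ^ j := by positivity
    linarith

theorem exists_coprime_parts {G : Type*} [Group G] [Finite G] {p : ℕ} (hp : p.Prime) (g : G) :
    ∃ x y : G, Commute x y ∧ g = x * y ∧ (∃ e, orderOf x ∣ p ^ e) ∧ orderOf y ∣ orderOf g ∧
      ¬ p ∣ orderOf y := by
  obtain ⟨e, m, hm, hn⟩ :=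
    Nat.exists_eq_pow_mul_and_not_dvd (orderOf_pos g).ne' p hp.ne_one
  have hco : Nat.gcd (p ^ e) m = 1 := Nat.Coprime.pow_left e (hp.coprime_iff_not_dvd.mpr hm)
  have hbez := Nat.gcd_eq_gcd_ab (p ^ e) m
  rw [hco] at hbez
  refine ⟨g ^ ((m : ℤ) * Nat.gcdB (p ^ e) m), g ^ (((p ^ e : ℕ) : ℤ) * Nat.gcdA (p ^ e) m),
    Commute.zpow_zpow_self g _ _, ?_, ⟨e, ?_⟩, orderOf_dvd_of_pow_eq_one ?_, ?_⟩
  · rw [← zpow_add, add_comm]
    push_cast at hbez ⊢
    rw [← hbez, zpow_one]
  · refine orderOf_dvd_of_pow_eq_one ?_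
    rw [← zpow_natCast, ← zpow_mul, show (m : ℤ) * Nat.gcdB (p ^ e) m * ((p ^ e : ℕ) : ℤ) =
      (((p ^ e * m : ℕ)) : ℤ) * Nat.gcdB (p ^ e) m by push_cast; ring, zpow_mul, zpow_natCast, ← hn,
      pow_orderOf_eq_one, one_zpow]
  · rw [← zpow_natCast, ← zpow_mul, mul_comm, zpow_mul, zpow_natCast, pow_orderOf_eq_one,
      one_zpow]
  · intro h
    refine hm (h.trans (orderOf_dvd_of_pow_eq_one ?_))
    rw [← zpow_natCast, ← zpow_mul, show ((p ^ e : ℕ) : ℤ) * Nat.gcdA (p ^ e) m * (m : ℤ) =
      (((p ^ e * m : ℕ)) : ℤ) * Nat.gcdA (p ^ e) m by push_cast; ring, zpow_mul, zpow_natCast, ← hn,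
      pow_orderOf_eq_one, one_zpow]

theorem smoothClasses_le : ∀ j, 3 ≤ j → ∀ (α : Type) [Finite α] (G : Subgroup (Perm α)),
    (smoothClasses G j : ℝ) ≤ B j ^ Nat.card α := by
  intro j hj
  induction j, hj using Nat.le_induction with
  | base =>
    intro α _ G
    haveI : Fact (Nat.Prime 2) := ⟨Nat.prime_two⟩
    let P : Sylow 2 G := default
    have h1 : smoothClasses G 3 ≤ Nat.card P := by
      refine le_trans (Nat.card_le_card_of_injective
        (fun c => (⟨c.1, ?_⟩ : Set.range fun x : P => ConjClasses.mk (x : G))) ?_)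
        (Finite.card_range_le _)
      · obtain ⟨g, hg, hc⟩ := c.2
        have hz : IsPGroup 2 (Subgroup.zpowers g) := by
          obtain ⟨k, hk⟩ : ∃ k, orderOf g = 2 ^ k :=
            ⟨_, Nat.eq_prime_pow_of_unique_prime_dvd (orderOf_pos g).ne' fun {q} hq hd => by
              have := hg q hq hd; have := hq.two_le; omega⟩
          exact IsPGroup.of_card (Nat.card_zpowers g ▸ hk)
        obtain ⟨Q, hQ⟩ := hz.exists_le_sylow
        obtain ⟨z, hz⟩ := MulAction.exists_smul_eq G Q P
        refine ⟨⟨z * g * z⁻¹, ?_⟩, ?_⟩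
        · rw [← hz]
          exact ⟨g, hQ (Subgroup.mem_zpowers g), rfl⟩
        · rw [← hc]
          exact ConjClasses.mk_eq_mk_iff_isConj.mpr (IsConj.symm (isConj_iff.mpr ⟨z, rfl⟩))
      · intro c c' h
        exact Subtype.ext (congrArg Subtype.val h :)
    have h2 : Nat.card P ≤ 2 ^ Nat.card α := by
      have := card_le_pow_factorial (p := 2) (P.isPGroup'.map G.subtype)
      rw [Subgroup.card_subtype] at this
      exact this.trans (Nat.pow_le_pow_right two_pos (padicValNat_factorial_le (p := 2) _))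
    calc (smoothClasses G 3 : ℝ) ≤ ((2 ^ Nat.card α : ℕ) : ℝ) := by exact_mod_cast h1.trans h2
      _ ≤ B 3 ^ Nat.card α := by
        rw [B_three]; push_cast; exact pow_le_pow_left₀ (by norm_num) (by norm_num) _
  | succ j hj ih =>
    intro α _ G
    have hB : B j ≤ B (j + 1) := by
      rw [← B_succ]; simp only [le_add_iff_nonneg_right]; positivity
    have hB0 : 0 ≤ B j := by linarith [three_le_B hj]
    by_cases hjp : j.Prime
    swap
    · refine le_trans ?_ ((ih α G).trans (pow_le_pow_left₀ hB0 hB _))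
      have : ∀ g : G, Smooth (j + 1) g → Smooth j g := fun g hg q hq hd => by
        have h1 := hg q hq hd
        have h2 : q ≠ j := fun h => hjp (h ▸ hq)
        omega
      exact_mod_cast Nat.card_le_card_of_injective
        (fun c : {c : ConjClasses G // ∃ g, Smooth (j + 1) g ∧ ConjClasses.mk g = c} => (⟨c.1, by obtain ⟨g, hg, hc⟩ := c.2; exact ⟨g, this g hg, hc⟩⟩ :
          {c : ConjClasses G // ∃ g, Smooth j g ∧ ConjClasses.mk g = c}))
        (fun c c' h => Subtype.ext (congrArg Subtype.val h :))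
    haveI : Fact j.Prime := ⟨hjp⟩
    let P : Sylow j G := default
    let C : P → Subgroup G := fun x => Subgroup.centralizer {(x : G)}
    let T := Σ x : P, {c : ConjClasses (C x) // ∃ y, Smooth j y ∧ ConjClasses.mk y = c}
    let F : T → ConjClasses G := fun t =>
      ConjClasses.mk ((t.1 : G) * (t.2.2.choose : G))
    have hcount : smoothClasses G (j + 1) ≤ Nat.card T := by
      refine le_trans (Nat.card_le_card_of_injective (fun c => (⟨c.1, ?_⟩ : Set.range F)) ?_)
        (Finite.card_range_le _)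
      · obtain ⟨g, hg, hc⟩ := c.2
        obtain ⟨x, y, hxy, hgxy, ⟨e, he⟩, hy, hyp⟩ := exists_coprime_parts hjp g
        have hz : IsPGroup j (Subgroup.zpowers x) := by
          obtain ⟨i, -, hi⟩ := (Nat.dvd_prime_pow hjp).mp he
          exact IsPGroup.of_card (Nat.card_zpowers x ▸ hi)
        obtain ⟨Q, hQ⟩ := hz.exists_le_sylow
        obtain ⟨z, hz⟩ := MulAction.exists_smul_eq G Q P
        have hx' : z * x * z⁻¹ ∈ (P : Subgroup G) := by
          rw [← hz]; exact ⟨x, hQ (Subgroup.mem_zpowers x), rfl⟩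
        have hy' : z * y * z⁻¹ ∈ C ⟨_, hx'⟩ := by
          rw [Subgroup.mem_centralizer_singleton_iff]
          exact ((hxy.symm.map (MulAut.conj z).toMonoidHom).eq :)
        have hsm : Smooth j (⟨_, hy'⟩ : C ⟨_, hx'⟩) := by
          intro q hq hd
          rw [← Subgroup.orderOf_coe] at hd
          change q ∣ orderOf (MulAut.conj z y) at hd
          rw [MulEquiv.orderOf_eq] at hd
          have h1 := hg q hq (hd.trans hy)
          have h2 : q ≠ j := fun h => hyp (h ▸ hd)
          omega
        refine ⟨⟨⟨_, hx'⟩, ConjClasses.mk ⟨_, hy'⟩, _, hsm, rfl⟩, ?_⟩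
        rw [← hc]
        simp only [F]
        generalize_proofs hex
        obtain ⟨w, hw⟩ := isConj_iff.mp (ConjClasses.mk_eq_mk_iff_isConj.mp hex.choose_spec.2)
        have hwv := congrArg Subtype.val hw
        simp only [Subgroup.coe_mul, Subgroup.coe_inv] at hwv
        have hwx := Subgroup.mem_centralizer_singleton_iff.mp w.2
        refine ConjClasses.mk_eq_mk_iff_isConj.mpr (isConj_iff.mpr ⟨z⁻¹ * w, ?_⟩)
        calc z⁻¹ * (w : G) * (z * x * z⁻¹ * (hex.choose : G)) * (z⁻¹ * (w : G))⁻¹
            = z⁻¹ * ((w : G) * (z * x * z⁻¹)) * ((hex.choose : G) * (w : G)⁻¹) * z := by group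
          _ = z⁻¹ * (z * x * z⁻¹) * ((w : G) * (hex.choose : G) * (w : G)⁻¹) * z := by
              rw [hwx]; group
          _ = g := by rw [hwv, hgxy]; group
      · intro c c' h
        exact Subtype.ext (congrArg Subtype.val h :)
    have hterm : ∀ x : P, (smoothClasses (C x) j : ℝ) ≤ B j ^ cyc ((x : G) : Perm α) := by
      intro x
      let xp : Perm α := ((x : G) : Perm α)
      have hcomm : ∀ c : C x, ∀ i : ℤ, ∀ a, ((c : G) : Perm α) ((xp ^ i) a) =
          (xp ^ i) (((c : G) : Perm α) a) := by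
        intro c i a
        have h1 := congrArg Subtype.val (Subgroup.mem_centralizer_singleton_iff.mp c.2)
        have h2 : Commute ((c : G) : Perm α) xp := h1
        exact congrArg (fun q : Perm α => q a) (h2.zpow_right i).eq
      let φf : C x → Quotient (Perm.SameCycle.setoid xp) → Quotient (Perm.SameCycle.setoid xp) :=
        fun c => Quotient.map ((c : G) : Perm α) (fun a b ⟨i, hi⟩ => ⟨i, by rw [← hcomm, hi]⟩)
      let φ : C x →* Perm (Quotient (Perm.SameCycle.setoid xp)) :=
        MonoidHom.toHomPerm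
          { toFun := φf
            map_one' := by
              funext q; induction q using Quotient.inductionOn with | h a => rfl
            map_mul' := fun c d => by
              funext q; induction q using Quotient.inductionOn with | h a => rfl }
      have hker : ∀ c ∈ φ.ker, ∀ a, ∃ i : ℤ, ((c : G) : Perm α) a = (xp ^ i) a := by
        intro c hc a
        have h1 : φ c (Quotient.mk _ a) = Quotient.mk _ a := by rw [MonoidHom.mem_ker.mp hc]; rfl
        obtain ⟨i, hi⟩ := Quotient.exact h1.symm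
        exact ⟨i, hi.symm⟩
      have hab : ∀ c ∈ φ.ker, ∀ d ∈ φ.ker, c * d = d * c := by
        intro c hc d hd
        apply Subtype.ext; apply Subtype.ext
        ext a
        simp only [Subgroup.coe_mul, Perm.mul_apply]
        obtain ⟨i, hi⟩ := hker c hc a
        obtain ⟨k, hk⟩ := hker d hd a
        rw [hk, hcomm, hi, hcomm, hk, ← Perm.mul_apply, ← Perm.mul_apply,
          (Commute.zpow_zpow_self xp k i).eq]
      have hpow : ∀ c ∈ φ.ker, c ^ orderOf xp = 1 := by
        intro c hc
        apply Subtype.ext; apply Subtype.ext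
        ext a
        obtain ⟨i, hi⟩ := hker c hc a
        have : ∀ t : ℕ, (((c : G) : Perm α) ^ t) a = (xp ^ (i * t)) a := by
          intro t
          induction t with
          | zero => simp
          | succ t iht =>
            rw [pow_succ', Perm.mul_apply, iht, hcomm, hi, ← Perm.mul_apply, ← zpow_add]
            push_cast; ring_nf
        simp only [SubmonoidClass.coe_pow, OneMemClass.coe_one, Perm.one_apply]
        rw [this, mul_comm, zpow_mul, zpow_natCast, pow_orderOf_eq_one, one_zpow, Perm.one_apply]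
      obtain ⟨e, he⟩ := IsPGroup.iff_orderOf.mp P.isPGroup' x
      have hx : orderOf xp = j ^ e := by
        simp only [xp, Subgroup.orderOf_coe, he]
      have hr := smoothClasses_le_range φ j hab fun c hc q hq hd => by
        have h1 : q ∣ j ^ e := hd.trans (hx ▸ orderOf_dvd_of_pow_eq_one (hpow c hc))
        exact ((Nat.prime_dvd_prime_iff_eq hq hjp).mp (hq.dvd_of_dvd_pow h1)).ge
      refine le_trans (by exact_mod_cast hr) (ih _ φ.range)
    classical
    haveI := Fintype.ofFinite P
    haveI : ∀ x : P, Fintype {c : ConjClasses (C x) // ∃ y, Smooth j y ∧ ConjClasses.mk y = c} :=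
      fun x => Fintype.ofFinite _
    let P' : Subgroup (Perm α) := (P : Subgroup G).map G.subtype
    haveI := Fintype.ofFinite P'
    have hsum : (Nat.card T : ℝ) ≤ cycSum (B j) P' := by
      rw [Nat.card_sigma, Nat.cast_sum]
      have hP' : cycSum (B j) P' = ∑ x : P', B j ^ cyc (x : Perm α) := by
        rw [cycSum]
        congr 1
        exact Finset.ext (by simp)
      let e : (P : Subgroup G) ≃* P' := (P : Subgroup G).equivMapOfInjective G.subtype
        Subtype.val_injective
      rw [hP', ← e.toEquiv.sum_comp]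
      exact Finset.sum_le_sum fun x _ => hterm x
    calc (smoothClasses G (j + 1) : ℝ) ≤ (Nat.card T : ℝ) := by exact_mod_cast hcount
      _ ≤ cycSum (B j) P' := hsum
      _ ≤ B (j + 1) ^ Nat.card α :=
        (cycSum_le hj (three_le_B hj) (B_succ j).le _ rfl P' (P.isPGroup'.map G.subtype)).1

theorem card_conjClasses_le_four_pow {α : Type} [Finite α] (G : Subgroup (Perm α)) :
    Nat.card (ConjClasses G) ≤ 4 ^ Nat.card α := by
  have h1 : Nat.card (ConjClasses G) ≤ smoothClasses G (Nat.card G + 3) := by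
    refine Nat.card_le_card_of_injective (fun c => ⟨c, ?_⟩) (fun c c' h => congrArg Subtype.val h)
    obtain ⟨g, rfl⟩ := ConjClasses.exists_rep c
    refine ⟨g, fun q hq hd => ?_, rfl⟩
    have := Nat.le_of_dvd Nat.card_pos (hd.trans (orderOf_dvd_natCard g))
    omega
  have h3 : 3 ≤ Nat.card G + 3 := by omega
  have h2 := (smoothClasses_le _ h3 α G).trans
    (pow_le_pow_left₀ (by linarith [three_le_B h3]) (B_le_four _) _)
  refine h1.trans ?_
  exact_mod_cast h2

end Cfsg.Agent.Components.ClassBound
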